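import Cfsg.Agent.H684.AltEmb

/-!
The groups of Lie type in characteristic `≠ p` (helper684).

* `exists_cross` : `v_p(|S|)` is bounded if the `p`-elements of `S` have order `< p ^ k`.
-/

set_option autoImplicit false

namespace Cfsg.Agent.H684.Cross

open Cfsg Cfsg.Agent.H684.LinGrp Cfsg.Agent.H684.AltEmb

theorem lin_matrix {F : Type} [Field F] {ι : Type} [Fintype ι] [DecidableEq ι] {p : ℕ}
    (hp : (p : F) ≠ 0) {S : Type*} [Group S] (f : S →* Matrix ι ι F) (hf : Function.Injective f) :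
    Lin p (Fintype.card ι * Fintype.card ι) S := by
  have h1 : Function.Injective f.toHomUnits := by
    intro a b hab
    exact hf (congrArg Units.val hab)
  exact (lin_gl hp le_rfl).of_injective f.toHomUnits h1

theorem lin_POmega {F : Type} [Field F] {ι : Type} [Fintype ι] [DecidableEq ι] {p : ℕ}
    (hp : (p : F) ≠ 0) (Q : (ι → F) → F) {N : ℕ} (hN : Fintype.card ι ≤ N) :
    Lin p (N * N * (N * N)) (POmega F Q) := by
  have h1 : Lin p (N * N) (isometryGroup F Q) := lin_subgroup hp (Nat.mul_le_mul hN hN) _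
  exact (h1.of_injective (Omega F Q).subtype (Subgroup.subtype_injective _)).quot

theorem lin_psl {F : Type} [Field F] {n p : ℕ} (hp : (p : F) ≠ 0) {N : ℕ} (hN : n ≤ N) :
    Lin p (N * N * (N * N)) (Matrix.ProjectiveSpecialLinearGroup (Fin n) F) := by
  have h1 := (lin_sl (n := n) hp).mono (Nat.mul_le_mul hN hN)
  exact h1.quot

theorem lin_psu {F : Type} [Field F] {n p : ℕ} (q : ℕ) (hp : (p : F) ≠ 0) {N : ℕ} (hN : n ≤ N) :
    Lin p (N * N * (N * N)) (PSU n F q) := by
  have h1 := ((lin_sl (n := n) hp).mono (Nat.mul_le_mul hN hN)).of_injective (SU n F q).subtype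
    (Subgroup.subtype_injective _)
  exact h1.quot

theorem lin_psp {F : Type} [Field F] {m p : ℕ} (hp : (p : F) ≠ 0) {N : ℕ} (hN : m + m ≤ N) :
    Lin p (N * N * (N * N)) (PSp m F) := by
  have h1 : Lin p (N * N) (Matrix.symplecticGroup (Fin m) F) := by
    refine (lin_matrix hp (Submonoid.subtype (Matrix.symplecticGroup (Fin m) F))
      Subtype.val_injective).mono ?_
    rw [Fintype.card_sum, Fintype.card_fin]
    exact Nat.mul_le_mul hN hN
  exact h1.quot

theorem Lin.equiv {p N : ℕ} {S T : Type*} [Group S] [Group T] (e : S ≃* T) (h : Lin p N T) :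
    Lin p N S := h.of_injective e.toMonoidHom e.injective

theorem lt_of_altIn {p k m n : ℕ} [Fact p.Prime] {S : Type*} [Group S] (he : ExpLt p k S)
    (h : 5 ≤ m → AltIn m S) (hn : n ≤ m + 1) : n ≤ 2 * p ^ k + 5 := by
  by_cases h5 : 5 ≤ m
  · have := (h h5).lt he
    omega
  · omega

theorem altIn_equiv {m : ℕ} {S T : Type*} [Group S] [Group T] (e : S ≃* T) (h : AltIn m T) :
    AltIn m S := h.of_injective e.symm.toMonoidHom e.symm.injective

/-- the bound of the dimension -/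
def dm (p k : ℕ) : ℕ :=
  2 * (2 * p ^ k + 5) + 2 + (Fintype.card Lie.chevG2.Idx + Fintype.card Lie.chevF4.Idx +
    Fintype.card Lie.chevE6.Idx + Fintype.card Lie.chevE7.Idx + Fintype.card Lie.chevE8.Idx +
    Fintype.card Lie.chevD4.Idx)

/-- **The groups of Lie type in characteristic `≠ p`.** -/
theorem lin_of_lie {p k r : ℕ} [Fact p.Prime] (hpr : p ≠ r) {S : Type*} [Group S]
    (he : ExpLt p k S) (hS : IsLieTypeChar r S) :
    Lin p (dm p k * dm p k * (dm p k * dm p k)) S := by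
  have hsub : ∀ {F : Type} [Field F] {ι : Type} [Fintype ι] [DecidableEq ι] (_ : (p : F) ≠ 0)
      (_ : Fintype.card ι ≤ dm p k) (H : Subgroup (Matrix.GeneralLinearGroup ι F)) (_ : S ≃* H),
      Lin p (dm p k * dm p k * (dm p k * dm p k)) S := by
    intro F _ ι _ _ hp hN H e
    have h1 : Lin p (dm p k * dm p k) H := lin_subgroup hp (Nat.mul_le_mul hN hN) _
    refine Lin.equiv e (h1.mono (Nat.le_mul_of_pos_left _ ?_))
    have : 0 < dm p k := by unfold dm; omega
    exact Nat.mul_pos this this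
  rcases hS with h | h | h | h | h | h | h | h | h | h | h
  · obtain ⟨F, _, _, _, n, hn, -, ⟨e⟩⟩ := h
    have hn' := lt_of_altIn (n := n) (m := n) he (fun h5 => altIn_equiv e (altIn_psl h5)) (by omega)
    exact Lin.equiv e (lin_psl (cast_ne_zero hpr) (by unfold dm; omega))
  · obtain ⟨F, _, _, _, m, hm, -, ⟨e⟩⟩ := h
    have hn' := lt_of_altIn (n := m) (m := m) he (fun h5 => altIn_equiv e (altIn_psp h5)) (by omega)
    exact Lin.equiv e (lin_psp (cast_ne_zero hpr) (by unfold dm; omega))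
  · obtain ⟨F, _, _, _, n, q, hF, hn, -, ⟨e⟩⟩ := h
    have hn' := lt_of_altIn (n := n) (m := n) he (fun h5 => altIn_equiv e (altIn_psu q h5)) (by omega)
    exact Lin.equiv e (lin_psu q (cast_ne_zero hpr) (by unfold dm; omega))
  · obtain ⟨F, _, _, _, m, hm, hodd, ⟨e⟩⟩ := h
    have hn' := lt_of_altIn (n := m) (m := m) he (fun h5 => altIn_equiv e (altIn_odd h5)) (by omega)
    refine Lin.equiv e (lin_POmega (cast_ne_zero hpr) _ ?_)
    rw [Fintype.card_sum, Fintype.card_sum, Fintype.card_fin, Fintype.card_unit]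
    unfold dm; omega
  · obtain ⟨F, _, _, _, m, hm, ⟨e⟩⟩ := h
    have hn' := lt_of_altIn (n := m) (m := m) he (fun h5 => altIn_equiv e (altIn_plus h5)) (by omega)
    refine Lin.equiv e (lin_POmega (cast_ne_zero hpr) _ ?_)
    rw [Fintype.card_sum, Fintype.card_fin]
    unfold dm; omega
  · obtain ⟨F, _, _, _, m, a, b, hm, hab, ⟨e⟩⟩ := h
    have hn' := lt_of_altIn (n := m - 1) (m := m - 1) he
      (fun h5 => altIn_equiv e (altIn_minus a b h5)) (by omega)
    refine Lin.equiv e (lin_POmega (cast_ne_zero hpr) _ ?_)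
    rw [Fintype.card_sum, Fintype.card_sum, Fintype.card_fin, Fintype.card_fin]
    unfold dm; omega
  · obtain ⟨F, _, _, _, ⟨-, ⟨e⟩⟩ | ⟨⟨e⟩⟩ | ⟨⟨e⟩⟩ | ⟨⟨e⟩⟩ | ⟨⟨e⟩⟩⟩ := h
    · exact hsub (cast_ne_zero hpr) (by unfold dm; omega) _ e
    · exact hsub (cast_ne_zero hpr) (by unfold dm; omega) _ e
    · exact hsub (cast_ne_zero hpr) (by unfold dm; omega) _ e
    · exact hsub (cast_ne_zero hpr) (by unfold dm; omega) _ e
    · exact hsub (cast_ne_zero hpr) (by unfold dm; omega) _ e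
  · obtain ⟨K, _, _, _, q, hq, ⟨hK, ⟨e⟩⟩ | ⟨hK, ⟨e⟩⟩⟩ := h
    · exact hsub (cast_ne_zero hpr) (by unfold dm; omega) _ e
    · exact hsub (cast_ne_zero hpr) (by unfold dm; omega) _ e
  · obtain ⟨rfl, F, _, _, m, hm, hF, ⟨e⟩⟩ := h
    have : CharP F 2 := charP_of_card_eq_prime_pow hF
    exact hsub (cast_ne_zero hpr) (by rw [Fintype.card_fin]; unfold dm; omega) _ e
  · obtain ⟨rfl, F, _, _, m, hm, hF, ⟨e⟩⟩ := h
    have : CharP F 2 := charP_of_card_eq_prime_pow hF
    exact hsub (cast_ne_zero hpr) (by unfold dm; omega) _ e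
  · obtain ⟨rfl, F, _, _, m, hm, hF, ⟨e⟩⟩ := h
    have : CharP F 3 := charP_of_card_eq_prime_pow hF
    exact hsub (cast_ne_zero hpr) (by unfold dm; omega) _ e

theorem exists_cross (p k : ℕ) [Fact p.Prime] : ∃ N : ℕ, ∀ (S : Type*) [Group S] [Finite S]
    (r : ℕ) (_ : p ≠ r) (_ : ExpLt p k S) (_ : IsLieTypeChar r S), (Nat.card S).factorization p ≤ N :=
  ⟨_, fun _ _ _ _ hpr he hS => (lin_of_lie hpr he hS).factorization_le he⟩

end Cfsg.Agent.H684.Cross
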