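import Cfsg.Agent.H684.SporBd
import Cfsg.Agent.H684.SzRee
import Cfsg.Agent.H684.TwFour
import Cfsg.Agent.H684.Cross
import Cfsg.Agent.H684.LieGood
import Cfsg.Agent.OddHalf.Known

/-!
The known simple groups whose `p`-elements have bounded order (helper684).
-/

set_option autoImplicit false

open Cfsg

universe u

namespace Cfsg.Agent.H684.SimpleCase

open Cfsg.Agent.H684.LinGrp Cfsg.Agent.H684.AltEmb Cfsg.Agent.H684.DefChar Cfsg.Agent.H684.GoodMap

theorem good_mono {p D D' : ℕ} {S : Type*} [Group S] (h : Good p D S) (hD : D ≤ D') : Good p D' S :=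
  LieGood.Good.mono h hD

theorem factorization_le_card {S : Type*} [Group S] [Finite S] (p : ℕ) :
    (Nat.card S).factorization p ≤ Nat.card S :=
  (Nat.factorization_lt p Nat.card_pos.ne').le

/-- **The trichotomy for the known simple groups.** -/
theorem simple_cases (p k : ℕ) [Fact p.Prime] : ∃ D N : ℕ, ∀ (S : Type u) [Group S] [Finite S]
    [IsSimpleGroup S] (_ : ∃ a b : S, a * b ≠ b * a) (_ : ExpLt p k S) (_ : IsKnownSimple' S),
    Good p D S ∨ (Nat.card S).factorization p ≤ N := by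
  obtain ⟨D1, hD1⟩ := LieGood.exists_good.{u} p k
  obtain ⟨N1, hN1⟩ := Cross.exists_cross.{u} p k
  obtain ⟨N2, hN2⟩ := SporBd.Bd.all.{u}
  refine ⟨D1 + 16 + (Fintype.card Lie.chevG2.Idx * Fintype.card Lie.chevG2.Idx + 2) +
    (Fintype.card Lie.chevF4.Idx * Fintype.card Lie.chevF4.Idx + 32),
    N1 + N2 + (2 * p ^ k).factorial, ?_⟩
  intro S _ _ _ hc he hS
  have hna : ¬ IsMulCommutative S := by
    intro h
    obtain ⟨a, b, hab⟩ := hc
    exact hab (mul_comm' a b)
  rcases Cfsg.Agent.OddHalf.Known.classify' hna hS with h | h | h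
  · obtain ⟨m, hm, ⟨e⟩⟩ := h
    right
    have h1 : AltIn m S := ⟨e.symm.toMonoidHom, e.symm.injective⟩
    have h2 := h1.lt he
    have h3 : Nat.card S ≤ (2 * p ^ k).factorial := by
      rw [Nat.card_congr e.toEquiv]
      calc Nat.card (alternatingGroup (Fin m)) ≤ Nat.card (Equiv.Perm (Fin m)) :=
            Nat.card_le_card_of_injective _ Subtype.val_injective
        _ = m.factorial := by rw [Nat.card_perm, Nat.card_fin]
        _ ≤ _ := Nat.factorial_le h2.le
    have h4 := factorization_le_card (S := S) p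
    omega
  · obtain ⟨r, hr, hL⟩ := h
    by_cases hpr : p = r
    · subst hpr
      left
      have hcases : KFacts.RgdLieCharP.IsLieFilt p S ∨ (p = 2 ∧ Lie.IsoSuzuki S) ∨
          (p = 2 ∧ Lie.Iso2F4 S) ∨ (p = 3 ∧ Lie.IsoRee S) := by
        rcases hL with h | h | h | h | h | h | h | h | h | h | h
        · exact Or.inl (Or.inl h)
        · exact Or.inl (Or.inr (Or.inl h))
        · exact Or.inl (Or.inr (Or.inr (Or.inl h)))
        · exact Or.inl (Or.inr (Or.inr (Or.inr (Or.inl h))))
        · exact Or.inl (Or.inr (Or.inr (Or.inr (Or.inr (Or.inl h)))))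
        · exact Or.inl (Or.inr (Or.inr (Or.inr (Or.inr (Or.inr (Or.inl h))))))
        · exact Or.inl (Or.inr (Or.inr (Or.inr (Or.inr (Or.inr (Or.inr (Or.inl h)))))))
        · exact Or.inl (Or.inr (Or.inr (Or.inr (Or.inr (Or.inr (Or.inr (Or.inr h)))))))
        · exact Or.inr (Or.inl h)
        · exact Or.inr (Or.inr (Or.inl h))
        · exact Or.inr (Or.inr (Or.inr h))
      rcases hcases with h | ⟨rfl, h⟩ | ⟨rfl, h⟩ | ⟨rfl, h⟩
      · exact good_mono (hD1 S hc he h) (by omega)
      · obtain ⟨F, _, _, m, hm, hF, ⟨e⟩⟩ := h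
        have : IsSimpleGroup ↥(Lie.Sz F (2 ^ (m + 1))) := e.symm.isSimpleGroup
        have hfin : Finite ↥(Lie.Sz F (2 ^ (m + 1))) := Finite.of_equiv S e.toEquiv
        exact good_mono ((SzRee.goodB_sz (m := m) hF).of_equiv e).good (by omega)
      · obtain ⟨K, _, _, m, hm, hK, ⟨e⟩⟩ := h
        have hfin : Finite ↥(Lie.twistedF4 K (2 ^ m)) := Finite.of_equiv S e.toEquiv
        exact good_mono ((TwFour.goodB_twF4 hm hK).of_equiv e).good (by omega)
      · obtain ⟨K, _, _, m, hm, hK, ⟨e⟩⟩ := h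
        have : IsSimpleGroup ↥(Lie.twistedG2 K (3 ^ m)) := e.symm.isSimpleGroup
        have hfin : Finite ↥(Lie.twistedG2 K (3 ^ m)) := Finite.of_equiv S e.toEquiv
        exact good_mono ((SzRee.goodB_ree (m := m) hK).of_equiv e).good (by omega)
    · right
      have h4 := hN1 S r hpr he hL
      omega
  · right
    have h4 := factorization_le_card (S := S) p
    have h5 := hN2 S h
    omega

end Cfsg.Agent.H684.SimpleCase
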