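import Cfsg.Prelude.Def_Classification2
import Cfsg.Agent.H684.RankOne

/-!
The orders of the sporadic groups and of the Tits group are bounded (helper684).
-/

set_option autoImplicit false

open Cfsg

universe u

namespace Cfsg.Agent.H684.SporBd

/-- the orders are bounded -/
def Bd (P : ∀ (S : Type u) [Group S], Prop) : Prop :=
  ∃ N : ℕ, ∀ (S : Type u) [Group S], P S → Nat.card S ≤ N

theorem Bd.or {P Q : ∀ (S : Type u) [Group S], Prop} (hP : Bd P) (hQ : Bd Q) :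
    Bd (fun S _ => P S ∨ Q S) := by
  obtain ⟨a, ha⟩ := hP
  obtain ⟨b, hb⟩ := hQ
  refine ⟨max a b, fun S _ h => ?_⟩
  rcases h with h | h
  · exact (ha S h).trans (le_max_left _ _)
  · exact (hb S h).trans (le_max_right _ _)

theorem Bd.iso (X : Type*) [Group X] : Bd.{u} (fun S _ => Nonempty (S ≃* X)) :=
  ⟨Nat.card X, fun _ _ ⟨e⟩ => (Nat.card_congr e.toEquiv).le⟩

theorem Bd.j3 : Bd.{u} (fun S _ => Spor.IsoJ3 S) := by
  refine ⟨4 ^ (Fintype.card Spor.F9 * Fintype.card Spor.F9), ?_⟩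
  rintro S _ ⟨F, _, _, ω, hF, -, ⟨e⟩⟩
  rw [Nat.card_congr e.toEquiv]
  refine le_trans (Nat.card_le_card_of_surjective (QuotientGroup.mk (s := Subgroup.center (Spor.threeJ3 F ω)))
    QuotientGroup.mk_surjective) ?_
  refine (RankOne.card_le_pow _).trans ?_
  rw [Nat.card_eq_fintype_card, hF]

theorem bd_M11 : Bd.{u} (fun S _ => Spor.IsoM11 S) := Bd.iso _

theorem bd_M12 : Bd.{u} (fun S _ => Spor.IsoM12 S) := Bd.iso _

theorem bd_M22 : Bd.{u} (fun S _ => Spor.IsoM22 S) := Bd.iso _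

theorem bd_M23 : Bd.{u} (fun S _ => Spor.IsoM23 S) := Bd.iso _

theorem bd_M24 : Bd.{u} (fun S _ => Spor.IsoM24 S) := Bd.iso _

theorem bd_J1 : Bd.{u} (fun S _ => Spor.IsoJ1 S) := Bd.iso _

theorem bd_J2 : Bd.{u} (fun S _ => Spor.IsoJ2 S) := Bd.iso _

theorem bd_J4 : Bd.{u} (fun S _ => Spor.IsoJ4 S) := Bd.iso _

theorem bd_Co1 : Bd.{u} (fun S _ => Spor.IsoCo1 S) := Bd.iso _

theorem bd_Co2 : Bd.{u} (fun S _ => Spor.IsoCo2 S) := Bd.iso _

theorem bd_Co3 : Bd.{u} (fun S _ => Spor.IsoCo3 S) := Bd.iso _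

theorem bd_McL : Bd.{u} (fun S _ => Spor.IsoMcL S) := Bd.iso _

theorem bd_HS : Bd.{u} (fun S _ => Spor.IsoHS S) := Bd.iso _

theorem bd_Suz : Bd.{u} (fun S _ => Spor.IsoSuz S) := Bd.iso _

theorem bd_He : Bd.{u} (fun S _ => Spor.IsoHe S) := Bd.iso _

theorem bd_Ru : Bd.{u} (fun S _ => Spor.IsoRu S) := Bd.iso _

theorem bd_ON : Bd.{u} (fun S _ => Spor.IsoON S) := Bd.iso _

theorem bd_Ly : Bd.{u} (fun S _ => Spor.IsoLy S) := Bd.iso _

theorem bd_Fi22 : Bd.{u} (fun S _ => Spor.IsoFi22 S) := Bd.iso _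

theorem bd_Fi23 : Bd.{u} (fun S _ => Spor.IsoFi23 S) := Bd.iso _

theorem bd_Fi24p : Bd.{u} (fun S _ => Spor.IsoFi24' S) := Bd.iso _

theorem bd_HN : Bd.{u} (fun S _ => Spor.IsoHN S) := Bd.iso _

theorem bd_Th : Bd.{u} (fun S _ => Spor.IsoTh S) := Bd.iso _

theorem bd_B : Bd.{u} (fun S _ => Spor.IsoB S) := Bd.iso _

theorem bd_M : Bd.{u} (fun S _ => Spor.IsoM S) := Bd.iso _

theorem Bd.sporadic : Bd.{u} (fun S _ => IsSporadicGroup S) := by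
  have h0 := bd_M.{u}
  have h1 := Bd.or bd_B.{u} h0
  have h2 := Bd.or bd_Th.{u} h1
  have h3 := Bd.or bd_HN.{u} h2
  have h4 := Bd.or bd_Fi24p.{u} h3
  have h5 := Bd.or bd_Fi23.{u} h4
  have h6 := Bd.or bd_Fi22.{u} h5
  have h7 := Bd.or bd_Ly.{u} h6
  have h8 := Bd.or bd_ON.{u} h7
  have h9 := Bd.or bd_Ru.{u} h8
  have h10 := Bd.or bd_He.{u} h9
  have h11 := Bd.or bd_Suz.{u} h10
  have h12 := Bd.or bd_HS.{u} h11
  have h13 := Bd.or bd_McL.{u} h12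
  have h14 := Bd.or bd_Co3.{u} h13
  have h15 := Bd.or bd_Co2.{u} h14
  have h16 := Bd.or bd_Co1.{u} h15
  have h17 := Bd.or bd_J4.{u} h16
  have h18 := Bd.or Bd.j3.{u} h17
  have h19 := Bd.or bd_J2.{u} h18
  have h20 := Bd.or bd_J1.{u} h19
  have h21 := Bd.or bd_M24.{u} h20
  have h22 := Bd.or bd_M23.{u} h21
  have h23 := Bd.or bd_M22.{u} h22
  have h24 := Bd.or bd_M12.{u} h23
  have h25 := Bd.or bd_M11.{u} h24
  obtain ⟨N, hN⟩ := h25
  refine ⟨N, fun S _ hS => hN S ?_⟩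
  exact hS

theorem Bd.tits : Bd.{u} (fun S _ => Lie.IsoTits S) := by
  refine ⟨Nat.card Lie.TitsGroup, ?_⟩
  intro S _ h
  obtain ⟨e⟩ := h
  exact (Nat.card_congr e.toEquiv).le

theorem Bd.all : Bd.{u} (fun S _ => Lie.IsoTits S ∨ IsSporadicGroup S) := Bd.or Bd.tits Bd.sporadic

end Cfsg.Agent.H684.SporBd
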