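import Cfsg.Agent.H684.BlockQuot
import Cfsg.Agent.H684.Landau

/-!
Elementary bounds in terms of the principal block (helper684).

* `card_lt` : `k(B₀(G/V)) < k(B₀(G))` if `p` divides `|V|`;
* `exponent_lt` : an element of order `p ^ i` gives `i < k(B₀(G))`;
* `rank_lt` : `V ≅ S ^ n` normal, `S` nonabelian simple of order divisible by `p`: `n < k(B₀(G))`;
* `card_abelian_le` : `V` a normal abelian `p`-subgroup: `|V|` is bounded.
-/

set_option autoImplicit false

open Cfsg
open scoped ComplexConjugate

universe u

namespace Cfsg.Agent.H684.Steps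

open Cfsg.Agent.H684.BlockTools

variable {G : Type*} [Group G] [Finite G] {p : ℕ} [Fact p.Prime] {M : Ideal AlgInt}

/-- `k(B₀(H)) < k(B₀(G))` if the kernel contains a nontrivial `p`-element. -/
theorem card_lt {H : Type*} [Group H] (hM : IsPModular p M) (f : G →* H)
    (hf : Function.Surjective f) {x : G} (hx : ∃ k : ℕ, orderOf x = p ^ k) (hx1 : x ≠ 1)
    (hfx : f x = 1) :
    Nat.card (principalBlock M H) < Nat.card (principalBlock M G) := by
  classical
  have hfG := finite_principal (M := M) (G := G)
  let _ : Fintype (principalBlock M G) := Fintype.ofFinite _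
  let F : principalBlock M H → principalBlock M G := fun ψ => ⟨infl f hf ψ.1, infl_mem hM f hf ψ.2⟩
  have hF : Function.Injective F := fun ψ ψ' h =>
    Subtype.ext (infl_injective f hf (congrArg Subtype.val h))
  have hfH : Finite (principalBlock M H) := Finite.of_injective F hF
  let _ : Fintype (principalBlock M H) := Fintype.ofFinite _
  rw [Nat.card_eq_fintype_card, Nat.card_eq_fintype_card]
  refine Fintype.card_lt_of_injective_not_surjective F hF fun hsurj => ?_
  have h1 := orth hM hx (y := (1 : G)) ⟨0, by simp⟩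
    (fun h => hx1 (isConj_one_left.1 h))
  rw [← finsum_set_coe_eq_finsum_mem, finsum_eq_sum_of_fintype] at h1
  have h2 : ∀ χ : principalBlock M G, ((χ : IrrCharacter G) : G → ℂ) x *
      conj (((χ : IrrCharacter G) : G → ℂ) 1) =
      ((charDegree ((χ : IrrCharacter G) : G → ℂ) ^ 2 : ℕ) : ℂ) := by
    intro χ
    obtain ⟨ψ, rfl⟩ := hsurj χ
    have h3 : (((F ψ : principalBlock M G) : IrrCharacter G) : G → ℂ) x =
        (((F ψ : principalBlock M G) : IrrCharacter G) : G → ℂ) 1 := by
      show ((ψ : IrrCharacter H) : H → ℂ) (f x) = ((ψ : IrrCharacter H) : H → ℂ) (f 1)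
      rw [hfx, map_one]
    rw [h3, Blocks.Orthogonality.conj_irr_one (F ψ).1.2,
      Blocks.Basic.irr_one_eq_charDegree (F ψ).1.2]
    push_cast
    ring
  rw [Finset.sum_congr rfl fun χ _ => h2 χ, ← Nat.cast_sum, Nat.cast_eq_zero,
    Finset.sum_eq_zero_iff] at h1
  have h3 := h1 ⟨triv G, triv_mem hM⟩ (Finset.mem_univ _)
  have h4 := Blocks.Basic.charDegree_pos (triv G).2
  exact (pow_ne_zero 2 h4.ne') h3

/-- Elements of different orders. -/
theorem exponent_lt (hM : IsPModular p M) {x : G} {i : ℕ} (hx : orderOf x = p ^ i) :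
    i < Nat.card (principalBlock M G) := by
  have hp : p.Prime := Fact.out
  have hord : ∀ j : Fin (i + 1), orderOf (x ^ p ^ (j : ℕ)) = p ^ (i - j) := by
    intro j
    rw [orderOf_pow_of_dvd (pow_ne_zero _ hp.ne_zero), hx]
    · exact Nat.pow_div (Nat.lt_succ_iff.1 j.2) hp.pos
    · rw [hx]; exact pow_dvd_pow _ (Nat.lt_succ_iff.1 j.2)
  have h1 := card_le_of_not_conj hM (fun j : Fin (i + 1) => x ^ p ^ (j : ℕ))
    (fun j => ⟨_, hord j⟩) ?_
  · rw [Nat.card_eq_fintype_card, Fintype.card_fin] at h1
    exact h1
  · intro a b hab hconj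
    obtain ⟨c, hc⟩ := isConj_iff.1 hconj
    have h2 : orderOf (x ^ p ^ (a : ℕ)) = orderOf (x ^ p ^ (b : ℕ)) := by
      rw [← hc]
      exact (MulEquiv.orderOf_eq (MulAut.conj c) _).symm
    rw [hord, hord] at h2
    have h3 := Nat.pow_right_injective hp.two_le h2
    apply hab
    have := a.2
    have := b.2
    exact Fin.ext (by omega)

/-- The number of simple factors. -/
theorem rank_lt (hM : IsPModular p M) (V : Subgroup G) [V.Normal] {S : Type*} [Group S]
    (hS : Subgroup.center S = ⊥) {n : ℕ} (e : V ≃* (Fin n → S)) (hpS : p ∣ Nat.card S) :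
    n < Nat.card (principalBlock M G) := by
  classical
  have hp : p.Prime := Fact.out
  rcases Nat.eq_zero_or_pos n with hn | hn
  · rw [hn]; exact card_pos hM
  have hfV : Finite (Fin n → S) := Finite.of_equiv V e.toEquiv
  have hfS : Finite S := Finite.of_injective (fun s : S => (fun _ : Fin n => s))
    (fun s t h => congrFun h ⟨0, hn⟩)
  obtain ⟨x, hx⟩ := exists_prime_orderOf_dvd_card' p hpS
  have hx1 : x ≠ 1 := by
    rintro rfl
    rw [orderOf_one] at hx
    exact hp.one_lt.ne hx
  have hxp : x ^ p = 1 := by rw [← hx]; exact pow_orderOf_eq_one x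
  -- the elements
  let y : Fin (n + 1) → (Fin n → S) := fun j i => if (i : ℕ) < j then x else 1
  have hyp : ∀ j, (y j) ^ p = 1 := by
    intro j
    funext i
    simp only [y, Pi.pow_apply, Pi.one_apply]
    split_ifs
    · exact hxp
    · exact one_pow p
  -- the centralizers
  have hcent : ∀ j, Nat.card (Subgroup.centralizer ({y j} : Set (Fin n → S))) =
      ∏ i : Fin n, (if (i : ℕ) < j then Nat.card (Subgroup.centralizer ({x} : Set S)) else
        Nat.card S) := by
    intro j
    have e1 : (Subgroup.centralizer ({y j} : Set (Fin n → S))) ≃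
        (∀ i : Fin n, (Subgroup.centralizer ({y j i} : Set S))) :=
      { toFun := fun z i => ⟨z.1 i, by
          have h1 := Subgroup.mem_centralizer_singleton_iff.1 z.2
          rw [Subgroup.mem_centralizer_singleton_iff]
          exact congrFun h1 i⟩
        invFun := fun z => ⟨fun i => (z i : S), by
          rw [Subgroup.mem_centralizer_singleton_iff]
          funext i
          exact Subgroup.mem_centralizer_singleton_iff.1 (z i).2⟩
        left_inv := fun z => rfl
        right_inv := fun z => rfl }
    rw [Nat.card_congr e1, Nat.card_pi]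
    refine Finset.prod_congr rfl fun i _ => ?_
    by_cases h1 : (i : ℕ) < j
    · rw [if_pos h1]
      have : y j i = x := if_pos h1
      rw [this]
    · rw [if_neg h1]
      have h2 : y j i = 1 := if_neg h1
      have h3 : Subgroup.centralizer ({1} : Set S) = ⊤ := by
        rw [eq_top_iff]
        intro z _
        rw [Subgroup.mem_centralizer_singleton_iff, mul_one, one_mul]
      rw [h2, h3, Subgroup.card_top]
  have hlt : Nat.card (Subgroup.centralizer ({x} : Set S)) < Nat.card S := by
    have h1 : (Subgroup.centralizer ({x} : Set S)) ≠ ⊤ := by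
      intro h2
      apply hx1
      rw [← Subgroup.mem_bot, ← hS, Subgroup.mem_center_iff]
      intro g
      have h3 : g ∈ Subgroup.centralizer ({x} : Set S) := by rw [h2]; trivial
      exact Subgroup.mem_centralizer_singleton_iff.1 h3
    by_contra h2
    exact h1 (Subgroup.eq_top_of_card_eq _ (le_antisymm (Subgroup.card_le_card_group _) (not_lt.1 h2)))
  set c := Nat.card (Subgroup.centralizer ({x} : Set S)) with hc
  have hc0 : 0 < c := Nat.card_pos
  have hmono : ∀ a b : Fin (n + 1), (a : ℕ) < b →
      Nat.card (Subgroup.centralizer ({y b} : Set (Fin n → S))) <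
        Nat.card (Subgroup.centralizer ({y a} : Set (Fin n → S))) := by
    intro a b hab
    rw [hcent, hcent]
    have hb := b.2
    refine Finset.prod_lt_prod (fun i _ => ?_) (fun i _ => ?_) ⟨⟨a, by omega⟩, Finset.mem_univ _, ?_⟩
    · split_ifs
      · exact hc0
      · exact hc0.trans hlt
    · split_ifs with h1 h2
      · exact le_refl _
      · exact hlt.le
      · omega
      · exact le_refl _
    · simp only [lt_irrefl, if_false]
      rw [if_pos hab]
      exact hlt
  -- the elements of `G`
  have h1 := card_le_of_not_conj hM (fun j : Fin (n + 1) => ((e.symm (y j) : V) : G)) ?_ ?_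
  · rw [Nat.card_eq_fintype_card, Fintype.card_fin] at h1
    exact h1
  · intro j
    have h2 : ((e.symm (y j) : V) : G) ^ p ^ 1 = 1 := by
      rw [pow_one, ← Subgroup.coe_pow, ← map_pow, hyp, map_one, Subgroup.coe_one]
    obtain ⟨a, -, ha⟩ := (Nat.dvd_prime_pow hp).1 (orderOf_dvd_of_pow_eq_one h2)
    exact ⟨a, ha⟩
  · intro a b hab hconj
    obtain ⟨g, hg⟩ := isConj_iff.1 hconj
    -- the automorphism of `S ^ n` induced by `g`
    let β : MulAut (Fin n → S) := (e.symm.trans (MulAut.conjNormal g : MulAut V)).trans e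
    have hβ : β (y a) = y b := by
      show e (MulAut.conjNormal g (e.symm (y a))) = y b
      rw [← MulEquiv.eq_symm_apply]
      apply Subtype.ext
      rw [MulAut.conjNormal_apply]
      exact hg
    have h2 : Nat.card (Subgroup.centralizer ({y a} : Set (Fin n → S))) =
        Nat.card (Subgroup.centralizer ({y b} : Set (Fin n → S))) := by
      refine Nat.card_congr ⟨fun z => ⟨β z, ?_⟩, fun z => ⟨β.symm z, ?_⟩, fun z => ?_, fun z => ?_⟩
      · rw [Subgroup.mem_centralizer_singleton_iff, ← hβ, ← map_mul, ← map_mul,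
          Subgroup.mem_centralizer_singleton_iff.1 z.2]
      · rw [Subgroup.mem_centralizer_singleton_iff]
        apply β.injective
        rw [map_mul, map_mul, MulEquiv.apply_symm_apply, hβ,
          Subgroup.mem_centralizer_singleton_iff.1 z.2]
      · exact Subtype.ext (β.symm_apply_apply _)
      · exact Subtype.ext (β.apply_symm_apply _)
    rcases lt_trichotomy (a : ℕ) b with h3 | h3 | h3
    · exact (hmono a b h3).ne' h2
    · exact hab (Fin.ext h3)
    · exact (hmono b a h3).ne h2

/-- **Normal abelian `p`-subgroups.** -/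
theorem card_abelian_le (k : ℕ) : ∃ N : ℕ, ∀ (G : Type u) [Group G] [Finite G] (p : ℕ)
    [Fact p.Prime] (M : Ideal AlgInt) (_ : IsPModular p M) (V : Subgroup G) [V.Normal]
    (_ : IsPGroup p V) (_ : V ≤ Subgroup.centralizer (V : Set G))
    (_ : Nat.card (principalBlock M G) ≤ k), Nat.card V ≤ N := by
  obtain ⟨L, hL⟩ := Landau.landau.{u} k
  refine ⟨k * L, ?_⟩
  intro G _ _ p _ M hM V _ hV hab hk
  classical
  have hp : p.Prime := Fact.out
  have h1 := BlockQuot.card_classes_le_of_normal hM V hV hab
  have h2 := hL (G ⧸ Subgroup.centralizer (V : Set G)) (h1.trans hk)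
  -- the classes
  let st : Setoid V := ⟨fun a b => IsConj (a : G) b, ⟨fun a => IsConj.refl _, fun h => h.symm,
    fun h h' => h.trans h'⟩⟩
  have h3 := card_le_of_not_conj hM (fun q : Quotient st => ((Quotient.out q : V) : G)) ?_ ?_
  · -- the map
    have hex : ∀ v : V, ∃ g : G, g * ((Quotient.out (Quotient.mk st v) : V) : G) * g⁻¹ = v := by
      intro v
      have h4 : IsConj ((Quotient.out (Quotient.mk st v) : V) : G) v :=
        Quotient.exact (Quotient.out_eq (Quotient.mk st v))
      exact isConj_iff.1 h4
    choose g hg using hex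
    let F : V → Quotient st × (G ⧸ Subgroup.centralizer (V : Set G)) :=
      fun v => (Quotient.mk st v, QuotientGroup.mk (g v))
    have hF : Function.Injective F := by
      intro v w hvw
      have h4 : Quotient.mk st v = Quotient.mk st w := congrArg Prod.fst hvw
      have h5 : (g v)⁻¹ * g w ∈ Subgroup.centralizer (V : Set G) :=
        QuotientGroup.eq.1 (congrArg Prod.snd hvw)
      apply Subtype.ext
      rw [← hg v, ← hg w, h4]
      set r : V := Quotient.out (Quotient.mk st w) with hr
      have h6 := Subgroup.mem_centralizer_iff.1 h5 r r.2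
      have h7 : g w * (r : G) * (g w)⁻¹ =
          g v * (((g v)⁻¹ * g w) * r) * (g w)⁻¹ := by group
      rw [h7, ← h6]
      group
    have h4 := Nat.card_le_card_of_injective F hF
    rw [Nat.card_prod] at h4
    exact h4.trans (Nat.mul_le_mul (h3.trans hk) h2)
  · intro q
    obtain ⟨a, ha⟩ := hV (Quotient.out q)
    have h4 : ((Quotient.out q : V) : G) ^ p ^ a = 1 := by
      rw [← Subgroup.coe_pow, ha, Subgroup.coe_one]
    obtain ⟨j, -, hj⟩ := (Nat.dvd_prime_pow hp).1 (orderOf_dvd_of_pow_eq_one h4)
    exact ⟨j, hj⟩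
  · intro q q' hqq h4
    apply hqq
    rw [← Quotient.out_eq q, ← Quotient.out_eq q']
    exact Quotient.sound h4

end Cfsg.Agent.H684.Steps
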